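import Cfsg.Agent.MaxCentralizers.Count
import Cfsg.Agent.Frobenius.Basic
import Cfsg.Agent.Chars.Apps.FrobeniusKernel
import Cfsg.Prelude.Def_Transfer

/-!
An abelian self-normalising member `A` gives `N/Z(N)` the structure of a Frobenius group with
complement `A/Z(N)` of prime order and elementary abelian kernel.
-/

set_option autoImplicit false

open scoped commutatorElement Pointwise
open CfsgLib.Frobenius.Count

namespace CfsgLib.MaxCentralizers

variable {G : Type*} [Group G] [Finite G] {N : Subgroup G}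

/-- The projection `N → N/Z(N)`. -/
abbrev proj (N : Subgroup G) : N →* N ⧸ Subgroup.center N := QuotientGroup.mk' (Subgroup.center N)

omit [Finite G] in
theorem mem_center_iff_zN {n : N} : n ∈ Subgroup.center N ↔ (n : G) ∈ zN N :=
  ⟨fun h => mem_zN.2 ⟨n.2, fun m hm => congrArg Subtype.val (Subgroup.mem_center_iff.1 h ⟨m, hm⟩)⟩,
    fun h => Subgroup.mem_center_iff.2 fun m => Subtype.ext ((mem_zN.1 h).2 m m.2)⟩

omit [Finite G] in
theorem proj_eq_one {n : N} : proj N n = 1 ↔ (n : G) ∈ zN N := by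
  rw [QuotientGroup.mk'_apply, QuotientGroup.eq_one_iff, mem_center_iff_zN]

/-- The image of a member in `N/Z(N)`. -/
def bar (N : Subgroup G) (a : G) : Subgroup (N ⧸ Subgroup.center N) :=
  ((cN N a).subgroupOf N).map (proj N)

omit [Finite G] in
theorem proj_mem_bar {a : G} (ha : a ∈ N) {n : N} : proj N n ∈ bar N a ↔ (n : G) ∈ cN N a := by
  refine ⟨?_, fun h => ⟨n, h, rfl⟩⟩
  rintro ⟨m, hm, hmn⟩
  have h : (m⁻¹ * n : N) ∈ Subgroup.center N := QuotientGroup.eq.1 hmn
  have := mul_mem (Subgroup.mem_subgroupOf.1 hm) (zN_le_cN ha (mem_center_iff_zN.1 h))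
  simpa using this

theorem isFrobeniusComplement_bar (hN : MaxCent N) [N.Normal] {a : G} (ha : a ∈ N) (hz : a ∉ zN N)
    (hs : IsSelf N a) (hc : ∀ x ∈ cN N a, ∀ y ∈ cN N a, x * y = y * x) :
    Cfsg.IsFrobeniusComplement (bar N a) := by
  refine CfsgLib.Frobenius.isFrobeniusComplement_iff.2 ⟨fun h => hz ?_, fun h => ?_, ?_⟩
  · have : proj N ⟨a, ha⟩ ∈ bar N a := (proj_mem_bar ha).2 (self_mem_cN ha)
    rw [h, Subgroup.mem_bot] at this
    exact proj_eq_one.1 this
  · refine cN_ne ha hz (le_antisymm cN_le fun n hn => ?_)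
    exact (proj_mem_bar ha (n := ⟨n, hn⟩)).1 (h ▸ Subgroup.mem_top _)
  · intro g h hh h1 hgh
    obtain ⟨g, rfl⟩ := QuotientGroup.mk'_surjective (Subgroup.center N) g
    obtain ⟨w, rfl⟩ := QuotientGroup.mk'_surjective (Subgroup.center N) h
    rw [← map_inv, ← map_mul, ← map_mul] at hgh
    rw [proj_mem_bar ha] at hh hgh ⊢
    exact mem_of_conj_mem hN hs hc g.2 hh (fun hh' => h1 (proj_eq_one.2 hh')) hgh

omit [Finite G] in
theorem proj_mem_conjHash {a : G} (ha : a ∈ N) {n : N} :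
    proj N n ∈ conjHash (bar N a) ↔
      (n : G) ∉ zN N ∧ ∃ g ∈ N, g⁻¹ * (n : G) * g ∈ cN N a := by
  constructor
  · rintro ⟨g, h, hh, h1, he⟩
    obtain ⟨g, rfl⟩ := QuotientGroup.mk'_surjective (Subgroup.center N) g
    have h' : h = proj N (g⁻¹ * n * g) := by rw [map_mul, map_mul, map_inv, he]; group
    subst h'
    refine ⟨fun hn => h1 ?_, g, g.2, by simpa using (proj_mem_bar ha).1 hh⟩
    rw [map_mul, map_mul, proj_eq_one.2 hn, mul_one, map_inv, inv_mul_cancel]
  · rintro ⟨hn, g, hg, hga⟩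
    refine ⟨proj N ⟨g, hg⟩, proj N (⟨g, hg⟩⁻¹ * n * ⟨g, hg⟩), (proj_mem_bar ha).2 (by simpa using hga),
      fun h1 => hn ?_, ?_⟩
    · rw [map_mul, map_mul, map_inv] at h1
      refine proj_eq_one.1 ?_
      calc proj N n = proj N ⟨g, hg⟩ * ((proj N ⟨g, hg⟩)⁻¹ * proj N n * proj N ⟨g, hg⟩) *
            (proj N ⟨g, hg⟩)⁻¹ := by group
        _ = 1 := by rw [h1]; group
    · rw [map_mul, map_mul, map_inv]
      group

/-- The member of a conjugate. -/
theorem conj_member_eq [N.Normal] {a n g : G} (hn : cN N (g⁻¹ * n * g) = cN N a) (c : G) :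
    g * c * g⁻¹ ∈ cN N n ↔ c ∈ cN N a := by
  have h : g * (g⁻¹ * n * g) * g⁻¹ = n := by group
  have := conj_mem_cN_iff (N := N) (g := g) (x := g⁻¹ * n * g) (c := c)
  rw [h, hn] at this
  exact this

/-- An element conjugate into `A \ Z(N)` is not of normal type, and its member is abelian. -/
theorem not_isNorm_of_conj (hN : MaxCent N) [N.Normal] {a n g : G} (hs : IsSelf N a)
    (hc : ∀ x ∈ cN N a, ∀ y ∈ cN N a, x * y = y * x) (ha : a ∈ N) (hz : a ∉ zN N) (hg : g ∈ N)
    (hn : n ∉ zN N) (hga : g⁻¹ * n * g ∈ cN N a) :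
    ¬ IsNorm N n ∧ ∀ x ∈ cN N n, ∀ y ∈ cN N n, x * y = y * x := by
  have hgn : g⁻¹ * n * g ∉ zN N := fun h => hn (by
    have := conj_mem_zN (g := g) h
    simpa [mul_assoc] using this)
  have heq := cN_eq_of_mem hN hs hc hga hgn
  have hiff := conj_member_eq heq
  refine ⟨fun hnorm => ?_, fun x hx y hy => ?_⟩
  · refine cN_ne ha hz (le_antisymm cN_le fun m hm => hs m hm fun c hcm => ?_)
    have hm' : g * m * g⁻¹ ∈ N := mul_mem (mul_mem hg hm) (inv_mem hg)
    have := hnorm _ hm' _ ((hiff c).2 hcm)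
    rw [← hiff]
    convert this using 1
    group
  · have hx' : g⁻¹ * x * g ∈ cN N a := (hiff _).1 (by simpa [mul_assoc] using hx)
    have hy' : g⁻¹ * y * g ∈ cN N a := (hiff _).1 (by simpa [mul_assoc] using hy)
    calc x * y = g * ((g⁻¹ * x * g) * (g⁻¹ * y * g)) * g⁻¹ := by group
      _ = g * ((g⁻¹ * y * g) * (g⁻¹ * x * g)) * g⁻¹ := by rw [hc _ hx' _ hy']
      _ = y * x := by group

/-- A `p`-subgroup lies in a conjugate of a subgroup of index prime to `p`. -/
theorem exists_conj_le {H : Type*} [Group H] [Finite H] {p : ℕ} [Fact p.Prime] {S A : Subgroup H}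
    (hS : IsPGroup p S) (hA : ¬ p ∣ A.index) : ∃ g : H, ∀ s ∈ S, g⁻¹ * s * g ∈ A := by
  obtain ⟨x, hx⟩ := hS.nonempty_fixed_point_of_prime_not_dvd_card (H ⧸ A) hA
  obtain ⟨g, rfl⟩ := QuotientGroup.mk_surjective x
  refine ⟨g, fun s hs => ?_⟩
  have h := hx ⟨s, hs⟩
  change ((s * g : H) : H ⧸ A) = (g : H ⧸ A) at h
  have := inv_mem (QuotientGroup.eq.1 h)
  simpa [mul_assoc] using this

variable {a : G}

/-- No self-normalising member is non-abelian. -/
theorem self_comm (hN : MaxCent N) [N.Normal] (ha : a ∈ N) (hz : a ∉ zN N) (hs : IsSelf N a)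
    (hc : ∀ x ∈ cN N a, ∀ y ∈ cN N a, x * y = y * x) {x : G} (hxN : x ∈ N) (hx : x ∉ zN N)
    (hxs : IsSelf N x) : ∀ u ∈ cN N x, ∀ v ∈ cN N x, u * v = v * u := by
  by_contra hnc
  obtain ⟨p, hp, hP⟩ := (comm_or_pType hN hxN hx).resolve_left hnc
  haveI : Fact p.Prime := ⟨hp⟩
  obtain ⟨S, hS⟩ := exists_sylow hN hxN hx hxs hP
  set A := (cN N a).subgroupOf N with hA
  by_cases hpA : ¬ p ∣ A.index
  · -- then `S` is conjugate into `A`, hence abelian
    obtain ⟨g, hg⟩ := exists_conj_le S.isPGroup' hpA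
    refine hnc ?_
    have hS1 : (S : Subgroup N).map N.subtype ≤
        (cN N a).comap (MulAut.conj (g : G)⁻¹).toMonoidHom := by
      rintro _ ⟨s, hs', rfl⟩
      simpa [hA, Subgroup.mem_subgroupOf] using hg s hs'
    have hZ1 : zN N ≤ (cN N a).comap (MulAut.conj (g : G)⁻¹).toMonoidHom :=
      fun z hz' => zN_le_cN ha (conj_mem_zN hz')
    have hle : cN N x ≤ (cN N a).comap (MulAut.conj (g : G)⁻¹).toMonoidHom :=
      hS.ge.trans (sup_le hS1 hZ1)
    intro u hu v hv
    have := hc _ (hle hu) _ (hle hv)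
    exact (MulAut.conj (g : G)⁻¹).injective (by simpa [mul_assoc] using this)
  · rw [not_not] at hpA
    obtain ⟨K, hKn, hK, hKc, -, -⟩ :=
      CfsgLib.Chars.Apps.frobenius_kernel_theorem (isFrobeniusComplement_bar hN ha hz hs hc)
    have hAidx : (bar N a).index = A.index := by
      rw [bar, Subgroup.index_map_eq _ (QuotientGroup.mk'_surjective _)]
      rw [QuotientGroup.ker_mk']
      exact fun z hz' => zN_le_cN ha (mem_center_iff_zN.1 hz')
    have hcop := CfsgLib.Frobenius.kernel_coprime (isFrobeniusComplement_bar hN ha hz hs hc) hK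
    rw [hKc, hAidx] at hcop
    have hpc : p.Coprime (Nat.card (bar N a)) := hcop.coprime_dvd_left hpA
    rw [← CfsgLib.Frobenius.kernel_index (isFrobeniusComplement_bar hN ha hz hs hc) hK] at hpc
    -- `S` lies in the preimage `H` of the kernel
    set H := K.comap (proj N) with hH
    haveI : H.Normal := hKn.comap _
    have hSH : (S : Subgroup N) ≤ H := by
      intro s hs'
      change proj N s ∈ K
      haveI := hKn
      rw [← QuotientGroup.eq_one_iff (N := K), ← orderOf_eq_one_iff]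
      obtain ⟨k, hk⟩ := S.isPGroup' ⟨s, hs'⟩
      have h1 : orderOf ((proj N s : N ⧸ Subgroup.center N) : (N ⧸ Subgroup.center N) ⧸ K) ∣ p ^ k := by
        refine orderOf_dvd_of_pow_eq_one ?_
        have h2 : s ^ p ^ k = 1 := by simpa using congrArg Subtype.val hk
        rw [← QuotientGroup.mk_pow, ← map_pow, h2, map_one, QuotientGroup.mk_one]
      have h3 : orderOf ((proj N s : N ⧸ Subgroup.center N) : (N ⧸ Subgroup.center N) ⧸ K) ∣ K.index :=
        orderOf_dvd_natCard _
      exact Nat.dvd_one.1 ((Nat.Coprime.pow_left k hpc) ▸ Nat.dvd_gcd h1 h3)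
    -- Frattini
    have hfr := Sylow.normalizer_sup_eq_top (S.subtype hSH)
    have hmap : ((S.subtype hSH : Sylow p H) : Subgroup H).map H.subtype = (S : Subgroup N) := by
      rw [Sylow.coe_subtype, Subgroup.subgroupOf_map_subtype, inf_of_le_left hSH]
    rw [hmap] at hfr
    have hCH : ∀ c : N, (c : G) ∈ cN N x → c ∈ H := by
      intro c hc'
      have hle : cN N x ≤ H.map N.subtype := hS.ge.trans (sup_le (Subgroup.map_mono hSH) fun z hz' =>
        ⟨⟨z, hz'.1⟩, show proj N ⟨z, hz'.1⟩ ∈ K by rw [proj_eq_one.2 hz']; exact one_mem K, rfl⟩)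
      obtain ⟨c', hc'', he⟩ := hle hc'
      exact N.subtype_injective he ▸ hc''
    have hnor : Subgroup.normalizer ((S : Subgroup N) : Set N) ≤ H := by
      intro g hg
      refine hCH g (hxs g g.2 fun c hc' => ?_)
      have hle : cN N x ≤ (cN N x).comap (MulAut.conj (g : G)).toMonoidHom := by
        refine hS.ge.trans (sup_le ?_ fun z hz' => zN_le_cN hxN (conj_mem_zN hz'))
        rintro _ ⟨s, hs', rfl⟩
        exact hS.le (le_sup_left (b := zN N) ⟨g * s * g⁻¹,
          ((Subgroup.mem_normalizer_iff.1 hg) s).1 hs', rfl⟩)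
      exact hle hc'
    have htop : H = ⊤ := top_le_iff.1 (hfr.ge.trans (sup_le hnor le_rfl))
    have h1 : proj N ⟨a, ha⟩ ∈ K := (htop ▸ Subgroup.mem_top _ : (⟨a, ha⟩ : N) ∈ H)
    exact (CfsgLib.Frobenius.mem_kernel_iff hK).1 h1
      ((proj_mem_conjHash ha).2 ⟨hz, 1, one_mem _, by simpa using self_mem_cN ha⟩)

/-- Every element of `N \ Z(N)` is of normal type or conjugate into `A`. -/
theorem isNorm_iff (hN : MaxCent N) [N.Normal] (ha : a ∈ N) (hz : a ∉ zN N) (hs : IsSelf N a)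
    (hc : ∀ x ∈ cN N a, ∀ y ∈ cN N a, x * y = y * x) {w : N} (hw : (w : G) ∉ zN N) :
    IsNorm N w ↔ proj N w ∉ conjHash (bar N a) := by
  constructor
  · intro hn hconj
    obtain ⟨-, g, hg, hga⟩ := (proj_mem_conjHash ha).1 hconj
    exact (not_isNorm_of_conj hN hs hc ha hz hg hw hga).1 hn
  · intro hout
    refine (isNorm_or_isSelf hN w.2 hw).resolve_right fun hws => ?_
    have hwc := self_comm hN ha hz hs hc w.2 hw hws
    obtain ⟨K, -, hK, -, -, -⟩ :=
      CfsgLib.Chars.Apps.frobenius_kernel_theorem (isFrobeniusComplement_bar hN ha hz hs hc)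
    obtain ⟨L, -, hL, -, -, -⟩ :=
      CfsgLib.Chars.Apps.frobenius_kernel_theorem (isFrobeniusComplement_bar hN w.2 hw hws hwc)
    -- two Frobenius kernels would cover `N/Z(N)`
    have hcov : ∀ q, q ∈ K ∨ q ∈ L := by
      intro q
      obtain ⟨n, rfl⟩ := QuotientGroup.mk'_surjective (Subgroup.center N) q
      by_contra hq
      push Not at hq
      obtain ⟨hn, g, hg, hga⟩ :=
        (proj_mem_conjHash ha).1 (CfsgLib.Frobenius.mem_conjHash_of_not_mem_kernel hK hq.1)
      obtain ⟨-, g', hg', hgw⟩ :=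
        (proj_mem_conjHash w.2).1 (CfsgLib.Frobenius.mem_conjHash_of_not_mem_kernel hL hq.2)
      have e1 := conj_member_eq (cN_eq_of_mem hN hs hc hga (fun h => hn (by
        have := conj_mem_zN (g := g) h; simpa [mul_assoc] using this)))
      have e2 := conj_member_eq (cN_eq_of_mem hN hws hwc hgw (fun h => hn (by
        have := conj_mem_zN (g := g') h; simpa [mul_assoc] using this)))
      refine hout ((proj_mem_conjHash ha).2 ⟨hw, g'⁻¹ * g, mul_mem (inv_mem hg') hg, ?_⟩)
      rw [← e1]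
      have := (e2 (w : G)).2 (self_mem_cN w.2)
      convert this using 1
      group
    have hKtop : K ≠ ⊤ := fun h => (CfsgLib.Frobenius.mem_kernel_iff hK).1
      (h ▸ Subgroup.mem_top (proj N ⟨a, ha⟩))
      ((proj_mem_conjHash ha).2 ⟨hz, 1, one_mem _, by simpa using self_mem_cN ha⟩)
    have hLtop : L ≠ ⊤ := fun h => (CfsgLib.Frobenius.mem_kernel_iff hL).1
      (h ▸ Subgroup.mem_top (proj N w))
      ((proj_mem_conjHash w.2).2 ⟨hw, 1, one_mem _, by simpa using self_mem_cN w.2⟩)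
    obtain ⟨k, -, hk⟩ := SetLike.exists_of_lt (lt_top_iff_ne_top.2 hKtop)
    obtain ⟨l, -, hl⟩ := SetLike.exists_of_lt (lt_top_iff_ne_top.2 hLtop)
    have hkL := (hcov k).resolve_left hk
    have hlK := (hcov l).resolve_right hl
    rcases hcov (k * l) with h | h
    · exact hk ((Subgroup.mul_mem_cancel_right K hlK).1 h)
    · exact hl ((Subgroup.mul_mem_cancel_left L hkL).1 h)

end CfsgLib.MaxCentralizers
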