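import Cfsg.Agent.MaxCentralizers.Members
import Cfsg.Agent.Fitting.Join

/-!
If all self-normalising members are non-abelian then `N` is nilpotent: those members account for at
most `|N| · ∑ 1/p² < |N|/2` elements, the others lie in the Fitting subgroup.
-/

set_option autoImplicit false

namespace CfsgLib.MaxCentralizers

/-- The sum of `1/p²` over primes is less than `1/2`. -/
theorem sum_inv_sq_lt (s : Finset ℕ) (hs : ∀ p ∈ s, p.Prime) :
    ∑ p ∈ s, (1 : ℚ) / (p : ℚ) ^ 2 < 1 / 2 := by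
  classical
  have tele : ∀ n : ℕ, ∑ j ∈ Finset.Icc 1 n, (1 : ℚ) / (4 * j * (j + 1)) = 1 / 4 * (1 - 1 / (n + 1)) := by
    intro n
    induction n with
    | zero => simp
    | succ n ih =>
      rw [Finset.sum_Icc_succ_top (by omega), ih]
      push_cast
      field_simp
      ring
  have hodd : ∑ p ∈ s.erase 2, (1 : ℚ) / (p : ℚ) ^ 2 < 1 / 4 := by
    have hh : ∀ p ∈ s.erase 2, p = 2 * (p / 2) + 1 ∧ 1 ≤ p / 2 := fun p hp => by
      obtain ⟨hp2, hps⟩ := Finset.mem_erase.1 hp
      have := (hs p hps).two_le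
      obtain ⟨k, hk⟩ := (hs p hps).odd_of_ne_two hp2
      omega
    set n := s.sup id with hn
    calc ∑ p ∈ s.erase 2, (1 : ℚ) / (p : ℚ) ^ 2
        ≤ ∑ p ∈ s.erase 2, (1 : ℚ) / (4 * (p / 2 : ℕ) * ((p / 2 : ℕ) + 1)) := by
          refine Finset.sum_le_sum fun p hp => ?_
          obtain ⟨h1, h2⟩ := hh p hp
          have h2' : (1 : ℚ) ≤ ((p / 2 : ℕ) : ℚ) := by exact_mod_cast h2
          have h1' : (p : ℚ) = 2 * ((p / 2 : ℕ) : ℚ) + 1 := by exact_mod_cast h1
          rw [h1']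
          refine one_div_le_one_div_of_le (by positivity) ?_
          ring_nf
          linarith
      _ = ∑ j ∈ (s.erase 2).image (fun p : ℕ => p / 2), (1 : ℚ) / (4 * (j : ℚ) * (j + 1)) := by
          refine (Finset.sum_image (f := fun j : ℕ => (1 : ℚ) / (4 * (j : ℚ) * (j + 1))) ?_).symm
          intro a ha b hb hab
          obtain ⟨h1, -⟩ := hh a ha
          obtain ⟨h2, -⟩ := hh b hb
          simp only at hab
          omega
      _ ≤ ∑ j ∈ Finset.Icc 1 n, (1 : ℚ) / (4 * (j : ℚ) * (j + 1)) := by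
          refine Finset.sum_le_sum_of_subset_of_nonneg (fun j hj => ?_) fun _ _ _ => by positivity
          obtain ⟨p, hp, rfl⟩ := Finset.mem_image.1 hj
          have : p ≤ n := Finset.le_sup (f := id) (Finset.mem_erase.1 hp).2
          exact Finset.mem_Icc.2 ⟨(hh p hp).2, (Nat.div_le_self p 2).trans this⟩
      _ < 1 / 4 := by
          rw [tele]
          have : (0 : ℚ) < 1 / ((n : ℚ) + 1) := by positivity
          linarith
  by_cases h2 : 2 ∈ s
  · rw [← Finset.add_sum_erase _ _ h2]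
    norm_num
    norm_num at hodd
    linarith
  · rw [Finset.erase_eq_of_notMem h2] at hodd
    linarith

variable {G : Type*} [Group G] [Finite G] {N : Subgroup G}

/-- The elements whose member is `S · Z(N)` for a Sylow `p`-subgroup `S` of `N`. -/
def pSet (N : Subgroup G) (p : ℕ) : Set G :=
  {w | w ∈ N ∧ w ∉ zN N ∧ IsSelf N w ∧ (¬ ∀ a ∈ cN N w, ∀ b ∈ cN N w, a * b = b * a) ∧
    IsPType N p w}

theorem ncard_pSet_le (hN : MaxCent N) [N.Normal] {p : ℕ} [Fact p.Prime] :
    (pSet N p).ncard * p ^ 2 ≤ Nat.card N := by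
  classical
  by_cases hne : pSet N p = ∅
  · simp [hne]
  obtain ⟨x, hxN, hx, hs, hnc, hP⟩ := Set.nonempty_iff_ne_empty.2 hne
  obtain ⟨S, hS⟩ := exists_sylow hN hxN hx hs hP
  set C := (cN N x).subgroupOf N with hC
  let f : (N ⧸ C) × Subgroup.center (cN N x) → G := fun q =>
    (q.1.out : G) * ((q.2 : cN N x) : G) * (q.1.out : G)⁻¹
  have hsub : pSet N p ⊆ Set.range f := by
    rintro w ⟨hwN, hw, hws, hwc, hwP⟩
    obtain ⟨T, hT⟩ := exists_sylow hN hwN hw hws hwP
    obtain ⟨n, hn⟩ := MulAction.exists_smul_eq N S T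
    -- `C_N(w) = n C_N(x) n⁻¹`
    have hle : cN N x ≤ (cN N w).comap (MulAut.conj (n : G)).toMonoidHom := by
      rw [← hS, ← hT]
      refine sup_le ?_ fun z hz => le_sup_right (a := (T : Subgroup N).map N.subtype) (conj_mem_zN hz)
      rintro _ ⟨s, hsS, rfl⟩
      refine le_sup_left (b := zN N) ⟨n * s * n⁻¹, ?_, rfl⟩
      rw [← hn, Sylow.coe_subgroup_smul]
      exact Subgroup.smul_mem_pointwise_smul s (MulAut.conj n) _ hsS
    have hle' : cN N w ≤ (cN N x).comap (MulAut.conj (n : G)⁻¹).toMonoidHom := by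
      rw [← hS, ← hT]
      refine sup_le ?_ fun z hz => le_sup_right (a := (S : Subgroup N).map N.subtype) (conj_mem_zN hz)
      rintro _ ⟨s, hsT, rfl⟩
      refine le_sup_left (b := zN N) ⟨n⁻¹ * s * n⁻¹⁻¹, ?_, rfl⟩
      rw [← hn, Sylow.coe_subgroup_smul] at hsT
      obtain ⟨s', hs', rfl⟩ := Subgroup.mem_map.1 hsT
      simp [MulAut.smul_def, mul_assoc]
      exact hs'
    set z₀ := (n : G)⁻¹ * w * (n : G) with hz₀
    have hz₀C : z₀ ∈ cN N x := by simpa [hz₀] using hle' (self_mem_cN hwN)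
    have hcen : (⟨z₀, hz₀C⟩ : cN N x) ∈ Subgroup.center (cN N x) := by
      refine Subgroup.mem_center_iff.2 fun c => Subtype.ext ?_
      have hc : (n : G) * (c : G) * (n : G)⁻¹ ∈ cN N w := by simpa using hle c.2
      have h := (mem_cN.1 hc).2
      change (c : G) * z₀ = z₀ * c
      calc (c : G) * z₀ = (n : G)⁻¹ * ((n : G) * c * (n : G)⁻¹ * w) * n := by rw [hz₀]; group
        _ = (n : G)⁻¹ * (w * ((n : G) * c * (n : G)⁻¹)) * n := by rw [h]
        _ = z₀ * c := by rw [hz₀]; group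
    refine ⟨⟨QuotientGroup.mk n, ⟨⟨z₀, hz₀C⟩, hcen⟩⟩, ?_⟩
    obtain ⟨c, hc⟩ := QuotientGroup.mk_out_eq_mul C n
    change ((QuotientGroup.mk n : N ⧸ C).out : G) * z₀ * ((QuotientGroup.mk n : N ⧸ C).out : G)⁻¹ = w
    rw [hc]
    have hcz := congrArg Subtype.val (Subgroup.mem_center_iff.1 hcen ⟨((c : N) : G), c.2⟩)
    simp only [Subgroup.coe_mul] at hcz ⊢
    calc (n : G) * (c : N) * z₀ * ((n : G) * (c : N))⁻¹
        = (n : G) * (((c : N) : G) * z₀) * ((c : N) : G)⁻¹ * (n : G)⁻¹ := by group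
      _ = (n : G) * (z₀ * ((c : N) : G)) * ((c : N) : G)⁻¹ * (n : G)⁻¹ := by rw [hcz]
      _ = w := by rw [hz₀]; group
  have h1 : (pSet N p).ncard ≤ Nat.card (N ⧸ C) * Nat.card (Subgroup.center (cN N x)) := by
    rw [← Nat.card_prod]
    refine (Set.ncard_le_ncard hsub (Set.toFinite _)).trans ?_
    rw [← Nat.card_coe_set_eq]
    exact Nat.card_le_card_of_surjective (Set.rangeFactorization f) Set.rangeFactorization_surjective
  calc (pSet N p).ncard * p ^ 2
      ≤ Nat.card (N ⧸ C) * (Nat.card (Subgroup.center (cN N x)) * p ^ 2) := by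
        rw [← mul_assoc]; exact Nat.mul_le_mul_right _ h1
    _ ≤ Nat.card (N ⧸ C) * Nat.card (cN N x) := Nat.mul_le_mul_left _ (card_center_mul_le hP hnc)
    _ = Nat.card N := by
        rw [← Subgroup.index_eq_card, ← Nat.card_congr (Subgroup.subgroupOfEquivOfLe cN_le).toEquiv,
          mul_comm]
        exact Subgroup.card_mul_index C

/-- Elements with normal member lie in the Fitting subgroup of `N`. -/
theorem mem_fitting (hN : MaxCent N) {w : G} (hwN : w ∈ N) (hw : w ∉ zN N) (hn : IsNorm N w) :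
    (⟨w, hwN⟩ : N) ∈ Cfsg.fittingSubgroup N := by
  haveI := isNilpotent_cN hN hwN hw
  haveI : ((cN N w).subgroupOf N).Normal := ⟨fun c hc g => hn g g.2 c hc⟩
  exact CfsgLib.Fitting.le_fittingSubgroup (N := (cN N w).subgroupOf N) inferInstance
    (Group.nilpotent_of_mulEquiv (Subgroup.subgroupOfEquivOfLe (cN_le (x := w))).symm)
    (self_mem_cN hwN)

/-- The centre lies in the Fitting subgroup. -/
theorem zN_mem_fitting {w : N} (hw : (w : G) ∈ zN N) : w ∈ Cfsg.fittingSubgroup N :=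
  CfsgLib.Fitting.le_fittingSubgroup (N := Subgroup.center N) inferInstance
    ⟨⟨1, by
      rw [Subgroup.upperCentralSeries_one, Subgroup.eq_top_iff']
      exact fun a => Subgroup.mem_center_iff.2 fun b =>
        Subtype.ext (Subgroup.mem_center_iff.1 a.2 b)⟩⟩
    (Subgroup.mem_center_iff.2 fun n => Subtype.ext ((mem_zN.1 hw).2 n n.2))

theorem isNilpotent_of_no_abelian_self (hN : MaxCent N) [N.Normal]
    (hno : ∀ x ∈ N, x ∉ zN N → IsSelf N x → ¬ ∀ a ∈ cN N x, ∀ b ∈ cN N x, a * b = b * a) :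
    Group.IsNilpotent N := by
  classical
  set F := Cfsg.fittingSubgroup N with hF
  haveI hFnil : Group.IsNilpotent F := CfsgLib.Fitting.fittingSubgroup_isNilpotent N
  by_cases htop : F = ⊤
  · haveI : Group.IsNilpotent (⊤ : Subgroup N) := htop ▸ hFnil
    exact Group.nilpotent_of_mulEquiv Subgroup.topEquiv
  exfalso
  set s := (Nat.card N).primeFactors with hsdef
  -- the complement of `F` is covered by the sets `pSet N p`
  have hcov : (((↑) : N → G) '' (F : Set N)ᶜ) ⊆ ⋃ p ∈ s, pSet N p := by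
    rintro _ ⟨w, hwF, rfl⟩
    have hw : (w : G) ∉ zN N := fun h => hwF (zN_mem_fitting h)
    have hs := (isNorm_or_isSelf hN w.2 hw).resolve_left fun hn => hwF (mem_fitting hN w.2 hw hn)
    have hnc := hno _ w.2 hw hs
    obtain ⟨p, hp, hP⟩ := (comm_or_pType hN w.2 hw).resolve_left hnc
    refine Set.mem_biUnion (x := p) ?_ ⟨w.2, hw, hs, hnc, hP⟩
    refine Nat.mem_primeFactors.2 ⟨hp, ?_, Nat.card_pos.ne'⟩
    by_contra hdvd
    refine hw (hP _ (self_mem_cN w.2) ?_)
    rw [Subgroup.orderOf_coe]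
    exact Nat.Coprime.coprime_dvd_left (orderOf_dvd_natCard w)
      ((hp.coprime_iff_not_dvd).2 hdvd).symm
  have hcard : 2 * Nat.card F ≤ Nat.card N := by
    rw [← F.card_mul_index, mul_comm]
    refine Nat.mul_le_mul_left _ ?_
    have := mt Subgroup.index_eq_one.1 htop
    have := F.index_ne_zero_of_finite
    omega
  have h1 : Nat.card N ≤ Nat.card F + ∑ p ∈ s, (pSet N p).ncard := by
    have hle : (((↑) : N → G) '' (F : Set N)ᶜ).ncard ≤ ∑ p ∈ s, (pSet N p).ncard :=
      (Set.ncard_le_ncard hcov (Set.toFinite _)).trans (Finset.set_ncard_biUnion_le _ _)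
    rw [Set.ncard_image_of_injective _ Subtype.val_injective] at hle
    have hadd := Set.ncard_add_ncard_compl (F : Set N)
    rw [← Nat.card_coe_set_eq] at hadd
    change Nat.card F + _ = _ at hadd
    omega
  have h2 : (∑ p ∈ s, (pSet N p).ncard : ℚ) < (Nat.card N : ℚ) / 2 := by
    have hNpos : (0 : ℚ) < Nat.card N := by exact_mod_cast Nat.card_pos
    calc (∑ p ∈ s, (pSet N p).ncard : ℚ) ≤ ∑ p ∈ s, (Nat.card N : ℚ) * (1 / (p : ℚ) ^ 2) := by
          refine Finset.sum_le_sum fun p hp => ?_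
          haveI : Fact p.Prime := ⟨(Nat.mem_primeFactors.1 hp).1⟩
          have hppos : (0 : ℚ) < (p : ℚ) ^ 2 := by
            have := (Nat.mem_primeFactors.1 hp).1.pos
            positivity
          rw [mul_one_div, le_div_iff₀ hppos]
          exact_mod_cast ncard_pSet_le (p := p) hN
      _ = (Nat.card N : ℚ) * ∑ p ∈ s, 1 / (p : ℚ) ^ 2 := by rw [Finset.mul_sum]
      _ < (Nat.card N : ℚ) * (1 / 2) :=
          mul_lt_mul_of_pos_left (sum_inv_sq_lt s fun p hp => (Nat.mem_primeFactors.1 hp).1) hNpos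
      _ = _ := by ring
  have h1' : (Nat.card N : ℚ) ≤ Nat.card F + ∑ p ∈ s, ((pSet N p).ncard : ℚ) := by exact_mod_cast h1
  have hcard' : (2 : ℚ) * Nat.card F ≤ Nat.card N := by exact_mod_cast hcard
  linarith

end CfsgLib.MaxCentralizers
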