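import Cfsg.Agent.MaxCentralizers.Members
import Cfsg.Agent.PGroup.Commutator

/-!
The nilpotent case: `N/Z(N)` is elementary abelian.
-/

set_option autoImplicit false

open scoped commutatorElement

namespace CfsgLib.MaxCentralizers

variable {G : Type*} [Group G] [Finite G] {N : Subgroup G}

theorem isNorm_of_nilpotent (hN : MaxCent N) [N.Normal] [Group.IsNilpotent N] {x : G}
    (hxN : x ∈ N) (hx : x ∉ zN N) : IsNorm N x := by
  refine (isNorm_or_isSelf hN hxN hx).resolve_right fun hs => ?_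
  have hlt : (cN N x).subgroupOf N < ⊤ := lt_top_iff_ne_top.2 fun h =>
    cN_ne hxN hx (le_antisymm cN_le (Subgroup.subgroupOf_eq_top.1 h))
  obtain ⟨g, hg, hgC⟩ := SetLike.exists_of_lt
    ((Group.normalizerCondition_of_isNilpotent (G := N)) _ hlt)
  exact hgC (hs g g.2 fun c hc => ((Subgroup.mem_normalizer_iff.1 hg) ⟨c, hc.1⟩).1 hc)

/-- Commutators of `N` lie in `Z(N)`. -/
theorem commutator_mem_zN (hN : MaxCent N) [N.Normal] [Group.IsNilpotent N] {a b : G}
    (ha : a ∈ N) (hb : b ∈ N) : ⁅a, b⁆ ∈ zN N := by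
  have hab : ⁅a, b⁆ ∈ N := mul_mem (mul_mem (mul_mem ha hb) (inv_mem ha)) (inv_mem hb)
  refine mem_zN.2 ⟨hab, fun x hxN => ?_⟩
  by_cases hx : x ∈ zN N
  · exact ((mem_zN.1 hx).2 _ hab).symm
  suffices h : ⁅a, b⁆ ∈ cN N x from (mem_cN.1 h).2.symm
  have hnorm := isNorm_of_nilpotent hN hxN hx
  haveI hD : ((cN N x).subgroupOf N).Normal :=
    ⟨fun c hc g => hnorm g g.2 c hc⟩
  set L := ⁅N, N⁆ ⊔ cN N x with hL
  have hLN : L ≤ N := sup_le (Subgroup.commutator_le_left N N) cN_le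
  rcases eq_or_eq hN hxN hx (le_sup_right : cN N x ≤ L) hLN (fun m hm l hl => by
      have hcomap : L ≤ L.comap (MulAut.conj m).toMonoidHom :=
        sup_le (fun c hc => le_sup_left (b := cN N x) (Subgroup.Normal.conj_mem inferInstance c hc m))
          fun c hc => le_sup_right (a := ⁅N, N⁆) (conj_mem_cN hm hc)
      exact hcomap hl) with h | h
  · exact h ▸ le_sup_left (b := cN N x) (Subgroup.commutator_mem_commutator ha hb)
  · -- `N = N'·C` forces `C = N`
    exfalso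
    set D := (cN N x).subgroupOf N with hDdef
    have hsup : commutator N ⊔ D = ⊤ := by
      rw [eq_top_iff]
      intro n _
      have hn : (n : G) ∈ L := h.ge n.2
      have hle : L ≤ (commutator N ⊔ D).map N.subtype := by
        refine sup_le ?_ fun c hc => ⟨⟨c, hc.1⟩, le_sup_right (a := commutator N) hc, rfl⟩
        refine le_trans ?_ (Subgroup.map_mono le_sup_left)
        rw [Subgroup.map_subtype_commutator]
      obtain ⟨n', hn', he⟩ := hle hn
      exact (N.subtype_injective he) ▸ hn'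
    have hQ : commutator (N ⧸ D) = ⊤ := by
      rw [eq_top_iff]
      intro q _
      obtain ⟨n, rfl⟩ := QuotientGroup.mk_surjective q
      have hle : commutator N ⊔ D ≤ (commutator (N ⧸ D)).comap (QuotientGroup.mk' D) := by
        refine sup_le ?_ fun d hd => ?_
        · rw [commutator_def, commutator_def, ← Subgroup.map_le_iff_le_comap,
            Subgroup.map_commutator]
          exact Subgroup.commutator_mono le_top le_top
        · rw [Subgroup.mem_comap, QuotientGroup.mk'_apply, (QuotientGroup.eq_one_iff d).2 hd]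
          exact one_mem _
      exact hle (hsup ▸ Subgroup.mem_top n)
    have hne : D ≠ ⊤ := fun hD' =>
      cN_ne hxN hx (le_antisymm cN_le (Subgroup.subgroupOf_eq_top.1 hD'))
    haveI : Nontrivial (N ⧸ D) := by
      rw [← not_subsingleton_iff_nontrivial]
      intro hss
      exact hne (eq_top_iff.2 fun n _ => (QuotientGroup.eq_one_iff n).1 (Subsingleton.elim _ _))
    haveI : Group.IsNilpotent (N ⧸ D) := inferInstance
    haveI : Group.IsSolvable (N ⧸ D) := inferInstance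
    exact (Group.IsSolvable.commutator_lt_top_of_nontrivial (G := N ⧸ D)).ne hQ

/-- In the nilpotent case some prime kills `N/C_N(x)`. -/
theorem exists_prime_pow_mem (hN : MaxCent N) [N.Normal] [Group.IsNilpotent N] {x : G}
    (hxN : x ∈ N) (hx : x ∉ zN N) : ∃ p, p.Prime ∧ ∀ n ∈ N, n ^ p ∈ cN N x := by
  classical
  have hclass : ∀ {a b : G}, a ∈ N → b ∈ N → ∀ c ∈ N, Commute ⁅a, b⁆ c := fun ha hb c hc =>
    ((mem_zN.1 (commutator_mem_zN hN ha hb)).2 c hc).symm
  obtain ⟨n₀, hn₀, hn₀C⟩ : ∃ n ∈ N, n ∉ cN N x := by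
    by_contra hc
    push Not at hc
    exact cN_ne hxN hx (le_antisymm cN_le hc)
  have hex : ∃ r, 0 < r ∧ n₀ ^ r ∈ cN N x :=
    ⟨orderOf n₀, orderOf_pos n₀, (pow_orderOf_eq_one n₀).symm ▸ one_mem _⟩
  obtain ⟨hr, hrm⟩ := Nat.find_spec hex
  have hr1 : Nat.find hex ≠ 1 := fun h => hn₀C (by simpa [h] using hrm)
  set p := (Nat.find hex).minFac with hpdef
  have hp : p.Prime := Nat.minFac_prime hr1
  refine ⟨p, hp, fun n hn => ?_⟩
  let L : Subgroup G :=
    { carrier := {n | n ∈ N ∧ n ^ p ∈ cN N x}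
      one_mem' := ⟨one_mem _, by rw [one_pow]; exact one_mem _⟩
      inv_mem' := fun {a} ha => ⟨inv_mem ha.1, by rw [inv_pow]; exact inv_mem ha.2⟩
      mul_mem' := fun {a b} ha hb => ⟨mul_mem ha.1 hb.1, by
        have h := CfsgLib.PGroup.mul_pow_mul_commutatorElement (hclass ha.1 hb.1 a ha.1)
          (hclass ha.1 hb.1 b hb.1) p
        have hz : ⁅a, b⁆ ^ p.choose 2 ∈ cN N x :=
          pow_mem (zN_le_cN hxN (commutator_mem_zN hN ha.1 hb.1)) _
        exact (Subgroup.mul_mem_cancel_right _ hz).1 (h ▸ mul_mem ha.2 hb.2)⟩ }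
  have hlt : Nat.find hex / p < Nat.find hex := Nat.div_lt_self hr hp.one_lt
  have hdvd : p ∣ Nat.find hex := Nat.minFac_dvd _
  have hw : n₀ ^ (Nat.find hex / p) ∈ L := by
    refine ⟨pow_mem hn₀ _, ?_⟩
    rw [← pow_mul, Nat.div_mul_cancel hdvd]
    exact hrm
  rcases eq_or_eq hN hxN hx (L := L) (fun c hc => ⟨hc.1, pow_mem hc _⟩) (fun c hc => hc.1)
      (fun m hm l hl => ⟨Subgroup.Normal.conj_mem inferInstance l hl.1 m, by
        rw [conj_pow]; exact conj_mem_cN hm hl.2⟩) with h | h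
  · exact absurd (h.le hw : n₀ ^ (Nat.find hex / p) ∈ cN N x) fun hc =>
      Nat.find_min hex hlt ⟨Nat.div_pos (Nat.le_of_dvd hr hdvd) hp.pos, hc⟩
  · exact (h.ge hn).2

/-- In the nilpotent case one prime kills `N` modulo `Z(N)`. -/
theorem exists_prime_exponent (hN : MaxCent N) [N.Normal] [Group.IsNilpotent N] :
    ∃ p, p.Prime ∧ ∀ n ∈ N, n ^ p ∈ zN N := by
  by_cases hab : ∀ x ∈ N, x ∈ zN N
  · exact ⟨2, Nat.prime_two, fun n hn => pow_mem (hab n hn) _⟩
  push Not at hab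
  obtain ⟨x, hxN, hx⟩ := hab
  obtain ⟨p, hp, hpx⟩ := exists_prime_pow_mem hN hxN hx
  have hclass : ∀ {a b : G}, a ∈ N → b ∈ N → ∀ c ∈ N, Commute ⁅a, b⁆ c := fun ha hb c hc =>
    ((mem_zN.1 (commutator_mem_zN hN ha hb)).2 c hc).symm
  refine ⟨p, hp, fun n hn => mem_zN.2 ⟨pow_mem hn _, fun y hyN => ?_⟩⟩
  by_cases hy : y ∈ zN N
  · exact ((mem_zN.1 hy).2 _ (pow_mem hn _)).symm
  suffices h : n ^ p ∈ cN N y from (mem_cN.1 h).2.symm
  obtain ⟨q, hq, hqy⟩ := exists_prime_pow_mem hN hyN hy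
  by_cases hqp : q = p
  · exact hqp ▸ hqy n hn
  exfalso
  have hkill : ∀ {z : G} {r : ℕ}, z ∈ N → (∀ m ∈ N, m ^ r ∈ cN N z) →
      ∀ m ∈ N, ⁅m, z⁆ ^ r = 1 := by
    intro z r hzN hr m hm
    rw [← CfsgLib.PGroup.commutatorElement_pow_left (hclass hm hzN m hm)]
    exact commutatorElement_eq_one_iff_mul_comm.2 (mem_cN.1 (hr m hm)).2
  have hcop : Nat.Coprime p q := (Nat.coprime_primes hp hq).2 (Ne.symm hqp)
  have horder : ∀ {g : G} {r s : ℕ}, Nat.Coprime r s → g ^ r = 1 → g ^ s = 1 → g = 1 := by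
    intro g r s hrs h1 h2
    exact orderOf_eq_one_iff.1 (Nat.dvd_one.1 (hrs ▸ Nat.dvd_gcd (orderOf_dvd_of_pow_eq_one h1)
      (orderOf_dvd_of_pow_eq_one h2)))
  -- `C(uv) = C(u)` for non-central `u, v` of different primes
  have key : ∀ {u v : G} {r s : ℕ}, u ∈ N → u ∉ zN N → v ∈ N → Nat.Coprime r s →
      (∀ m ∈ N, m ^ r ∈ cN N u) → (∀ m ∈ N, m ^ s ∈ cN N v) → cN N (u * v) = cN N u := by
    intro u v r s huN hu hvN hrs hru hsv
    have hvs : v ^ s ∈ zN N := mem_zN.2 ⟨pow_mem hvN _, fun m hm => by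
      refine commutatorElement_eq_one_iff_mul_comm.1 ?_
      rw [CfsgLib.PGroup.commutatorElement_pow_right (hclass hm hvN v hvN)]
      exact hkill hvN hsv m hm⟩
    have hus : cN N (u ^ s) = cN N u := by
      refine le_antisymm (fun m hm => mem_cN.2 ⟨hm.1, ?_⟩) fun m hm =>
        mem_cN.2 ⟨hm.1, (Commute.pow_right (mem_cN.1 hm).2 s).eq⟩
      refine commutatorElement_eq_one_iff_mul_comm.1 (horder hrs (hkill huN hru m hm.1) ?_)
      rw [← CfsgLib.PGroup.commutatorElement_pow_right (hclass hm.1 huN u huN)]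
      exact commutatorElement_eq_one_iff_mul_comm.2 (mem_cN.1 hm).2
    have h := CfsgLib.PGroup.mul_pow_mul_commutatorElement (hclass huN hvN u huN)
      (hclass huN hvN v hvN) s
    have hz : v ^ s * (⁅u, v⁆ ^ s.choose 2)⁻¹ ∈ zN N :=
      mul_mem hvs (inv_mem (pow_mem (commutator_mem_zN hN huN hvN) _))
    have hpow : (u * v) ^ s = u ^ s * (v ^ s * (⁅u, v⁆ ^ s.choose 2)⁻¹) := by
      rw [← mul_assoc, ← h, mul_inv_cancel_right]
    have hcc : cN N ((u * v) ^ s) = cN N (u ^ s) := by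
      ext m
      rw [mem_cN, mem_cN, hpow]
      refine and_congr_right fun hm => ?_
      have hmz := (mem_zN.1 hz).2 m hm
      generalize v ^ s * (⁅u, v⁆ ^ s.choose 2)⁻¹ = z at hmz ⊢
      rw [← mul_assoc, mul_assoc (u ^ s) z m, ← hmz, ← mul_assoc]
      exact ⟨fun e => mul_right_cancel e, fun e => congrArg (· * z) e⟩
    have hsne : (u * v) ^ s ∉ zN N := fun hh => cN_ne huN hu (le_antisymm cN_le fun m hm => by
      rw [← hus, ← hcc]
      exact mem_cN.2 ⟨hm, (mem_zN.1 hh).2 m hm⟩)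
    have huv : u * v ∉ zN N := fun hh => hsne (pow_mem hh _)
    rw [cN_eq_of_centralizer_eq (centralizer_eq_of_le hN (mul_mem huN hvN) huv
      (pow_mem (mul_mem huN hvN) _) hsne
      (centralizer_le_of_mem_zpowers (Subgroup.npow_mem_zpowers _ _))), hcc, hus]
  have h1 := key hxN hx hyN hcop hpx hqy
  have h2 := key hyN hy hxN hcop.symm hqy hpx
  have h3 : cN N (x * y) = cN N (y * x) := by
    have hz := commutator_mem_zN hN hxN hyN
    have hxy : x * y = ⁅x, y⁆ * (y * x) := by simp only [commutatorElement_def]; group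
    ext m
    rw [mem_cN, mem_cN, hxy]
    refine and_congr_right fun hm => ?_
    have hmz := (mem_zN.1 hz).2 m hm
    generalize ⁅x, y⁆ = z at hmz ⊢
    rw [← mul_assoc, hmz, mul_assoc, mul_assoc]
    exact ⟨fun e => mul_left_cancel e, fun e => congrArg (z * ·) e⟩
  have heq : cN N x = cN N y := by rw [← h1, h3, h2]
  refine cN_ne hyN hy (le_antisymm cN_le fun m hm => mem_cN.2 ⟨hm, ?_⟩)
  refine commutatorElement_eq_one_iff_mul_comm.1 (horder hcop ?_ (hkill hyN hqy m hm))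
  rw [← CfsgLib.PGroup.commutatorElement_pow_left (hclass hm hyN m hm)]
  exact commutatorElement_eq_one_iff_mul_comm.2 (mem_cN.1 (heq ▸ hpx m hm)).2

end CfsgLib.MaxCentralizers
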