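import Cfsg.Agent.MaxCentralizers.Complement
import Cfsg.Agent.MaxCentralizers.Nilpotent

/-!
If the centralizer of every element of `N \ Z(N)` is maximal in `G` then `N/Z(N)` is elementary
abelian or a Frobenius group with complement of prime order and elementary abelian kernel.
-/

set_option autoImplicit false

open scoped commutatorElement
open CfsgLib.Frobenius.Count

namespace CfsgLib.MaxCentralizers

variable {G : Type*} [Group G] [Finite G] {N : Subgroup G} {a : G}

theorem comm_bar (ha : a ∈ N) (hc : ∀ x ∈ cN N a, ∀ y ∈ cN N a, x * y = y * x)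
    {u v : N ⧸ Subgroup.center N} (hu : u ∈ bar N a) (hv : v ∈ bar N a) : u * v = v * u := by
  obtain ⟨u, rfl⟩ := QuotientGroup.mk'_surjective (Subgroup.center N) u
  obtain ⟨v, rfl⟩ := QuotientGroup.mk'_surjective (Subgroup.center N) v
  rw [← map_mul, ← map_mul]
  exact congrArg _ (Subtype.ext (hc _ ((proj_mem_bar ha).1 hu) _ ((proj_mem_bar ha).1 hv)))

theorem frobenius_case (hN : MaxCent N) [N.Normal] (ha : a ∈ N) (hz : a ∉ zN N) (hs : IsSelf N a)
    (hc : ∀ x ∈ cN N a, ∀ y ∈ cN N a, x * y = y * x) :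
    ∃ (Q K : Subgroup (↥N ⧸ Subgroup.center ↥N)) (p : ℕ), p.Prime ∧ Cfsg.IsFrobeniusComplement Q ∧
      (Nat.card ↥Q).Prime ∧ K.Normal ∧
      (K : Set (↥N ⧸ Subgroup.center ↥N)) = Cfsg.frobeniusKernel Q ∧
      Cfsg.IsElementaryAbelian p K := by
  classical
  have hF := isFrobeniusComplement_bar hN ha hz hs hc
  obtain ⟨K, hKn, hK, -, hKA, hKc⟩ := CfsgLib.Chars.Apps.frobenius_kernel_theorem hF
  haveI := hKn
  have hout : ∀ {n : N}, proj N n ∈ K ↔ proj N n ∉ conjHash (bar N a) := fun {n} =>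
    CfsgLib.Frobenius.mem_kernel_iff hK
  -- the preimage of the kernel, as a subgroup of `G`
  set K₁ := (K.comap (proj N)).map N.subtype with hK₁
  have hK₁N : K₁ ≤ N := Subgroup.map_subtype_le _
  have hmemK : ∀ n : N, (n : G) ∈ K₁ ↔ proj N n ∈ K := fun n =>
    ⟨fun ⟨m, hm, he⟩ => N.subtype_injective he ▸ hm, fun h => ⟨n, h, rfl⟩⟩
  have hchar : ∀ g : G, g ∈ K₁ ↔ g ∈ N ∧ (g ∈ zN N ∨ IsNorm N g) := by
    intro g
    refine ⟨fun h => ⟨hK₁N h, or_iff_not_imp_left.2 fun hg =>
      (isNorm_iff hN ha hz hs hc (w := ⟨g, hK₁N h⟩) hg).2 (hout.1 ((hmemK ⟨g, hK₁N h⟩).1 h))⟩, ?_⟩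
    rintro ⟨hgN, hg⟩
    refine (hmemK ⟨g, hgN⟩).2 ?_
    by_cases hgz : g ∈ zN N
    · rw [proj_eq_one.2 hgz]; exact one_mem K
    · exact hout.2 ((isNorm_iff hN ha hz hs hc (w := ⟨g, hgN⟩) hgz).1 (hg.resolve_left hgz))
  have hzK : zN N ≤ K₁ := fun z hz' => (hchar z).2 ⟨hz'.1, Or.inl hz'⟩
  haveI hK₁n : K₁.Normal := by
    refine ⟨fun k hk g => ?_⟩
    obtain ⟨hkN, hk⟩ := (hchar k).1 hk
    refine (hchar _).2 ⟨Subgroup.Normal.conj_mem inferInstance k hkN g, ?_⟩
    refine hk.imp (conj_mem_zN) fun hn m hm c hcm => ?_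
    have hc' : g⁻¹ * c * g ∈ cN N k := by
      rw [← conj_mem_cN_iff (g := g)]
      simpa [mul_assoc] using hcm
    have hm' : g⁻¹ * m * g ∈ N := by
      simpa using Subgroup.Normal.conj_mem (inferInstance : N.Normal) m hm g⁻¹
    have h := (conj_mem_cN_iff (g := g)).2 (hn _ hm' _ hc')
    convert h using 1
    group
  have hinter : ∀ g ∈ K₁, g ∈ cN N a → g ∈ zN N := by
    intro g hg hga
    by_contra hgz
    exact hout.1 ((hmemK ⟨g, hK₁N hg⟩).1 hg)
      ((proj_mem_conjHash ha).2 ⟨hgz, 1, one_mem _, by simpa using hga⟩)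
  -- `K₁` is a chief factor of `G` over `Z(N)`
  have chief : ∀ L : Subgroup G, L.Normal → zN N ≤ L → L ≤ K₁ →
      (∀ l ∈ L, l ∈ zN N) ∨ L = K₁ := by
    intro L hLn hzL hLK
    haveI := hLn
    rcases eq_or_eq hN ha hz (L := L ⊔ cN N a) le_sup_right (sup_le (hLK.trans hK₁N) cN_le)
        (fun m hm l hl => by
          have hle : L ⊔ cN N a ≤ (L ⊔ cN N a).comap (MulAut.conj m).toMonoidHom :=
            sup_le (fun c hc => le_sup_left (b := cN N a) (hLn.conj_mem c hc m))
              fun c hc => le_sup_right (a := L) (conj_mem_cN hm hc)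
          exact hle hl) with h | h
    · exact Or.inl fun l hl => hinter l (hLK hl) (h.le (le_sup_left (b := cN N a) hl))
    · refine Or.inr (le_antisymm hLK fun k hk => ?_)
      obtain ⟨l, hl, c, hc', rfl⟩ := Subgroup.mem_sup_of_normal_left.1 (h.ge (hK₁N hk))
      exact mul_mem hl (hzL (hinter c ((Subgroup.mul_mem_cancel_left K₁ (hLK hl)).1 hk) hc'))
  -- the kernel is nilpotent
  haveI hKnil : Group.IsNilpotent K := by
    haveI := CfsgLib.Fitting.fittingSubgroup_isNilpotent N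
    have hle : K.comap (proj N) ≤ Cfsg.fittingSubgroup N := fun n hn => by
      rcases ((hchar _).1 ((hmemK n).2 hn)).2 with h | h
      · exact zN_mem_fitting h
      · by_cases hnz : (n : G) ∈ zN N
        · exact zN_mem_fitting hnz
        · exact mem_fitting hN n.2 hnz h
    haveI : Group.IsNilpotent (K.comap (proj N)) :=
      Group.nilpotent_of_mulEquiv (Subgroup.subgroupOfEquivOfLe hle)
    refine Group.nilpotent_of_surjective ((proj N).subgroupComap K) ?_
    intro k
    obtain ⟨n, hn⟩ := QuotientGroup.mk'_surjective (Subgroup.center N) (k : N ⧸ Subgroup.center N)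
    exact ⟨⟨n, show proj N n ∈ K from hn.symm ▸ k.2⟩, Subtype.ext hn⟩
  have hKne : K ≠ ⊥ := CfsgLib.Frobenius.kernel_ne_bot hF hK
  haveI : Nontrivial K := (Subgroup.nontrivial_iff_ne_bot K).2 hKne
  -- a prime `p` dividing the centre of `K`
  have hcne : Nat.card (Subgroup.center K) ≠ 1 := fun h => by
    haveI := (Subgroup.nontrivial_iff_ne_bot _).2 (Group.IsNilpotent.center_ne_bot (G := K))
    exact absurd h (Finite.one_lt_card (α := Subgroup.center K)).ne'
  obtain ⟨p, hp, hpdvd⟩ := Nat.exists_prime_and_dvd hcne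
  haveI : Fact p.Prime := ⟨hp⟩
  let L : Subgroup G :=
    { carrier := {g | g ∈ K₁ ∧ (∀ j ∈ K₁, ⁅g, j⁆ ∈ zN N) ∧ g ^ p ∈ zN N}
      one_mem' := ⟨one_mem _, fun j _ => by rw [commutatorElement_one_left]; exact one_mem _, by
        rw [one_pow]; exact one_mem _⟩
      inv_mem' := fun {g} hg => ⟨inv_mem hg.1, fun j hj => by
          have h := hg.2.1 j hj
          have hh : ⁅g⁻¹, j⁆ = g⁻¹ * ⁅g, j⁆⁻¹ * g⁻¹⁻¹ := by
            simp only [commutatorElement_def]; group
          rw [hh]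
          exact conj_mem_zN (inv_mem h), by rw [inv_pow]; exact inv_mem hg.2.2⟩
      mul_mem' := fun {g h} hg hh => ⟨mul_mem hg.1 hh.1, fun j hj => by
          have he : ⁅g * h, j⁆ = g * ⁅h, j⁆ * g⁻¹ * ⁅g, j⁆ := by
            simp only [commutatorElement_def]; group
          rw [he]
          exact mul_mem (conj_mem_zN (hh.2.1 j hj)) (hg.2.1 j hj), by
          have hgh := hg.2.1 h hh.1
          have hcom : ∀ c ∈ N, Commute ⁅g, h⁆ c := fun c hc' => ((mem_zN.1 hgh).2 c hc').symm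
          have h' := CfsgLib.PGroup.mul_pow_mul_commutatorElement (hcom g (hK₁N hg.1))
            (hcom h (hK₁N hh.1)) p
          exact (Subgroup.mul_mem_cancel_right _ (pow_mem hgh (p.choose 2))).1
            (h' ▸ mul_mem hg.2.2 hh.2.2)⟩ }
  have hLmem : ∀ g, g ∈ L ↔ g ∈ K₁ ∧ (∀ j ∈ K₁, ⁅g, j⁆ ∈ zN N) ∧ g ^ p ∈ zN N := fun g => Iff.rfl
  haveI hLn : L.Normal := by
    refine ⟨fun g hg x => ?_⟩
    rw [hLmem] at hg ⊢
    refine ⟨hK₁n.conj_mem g hg.1 x, fun j hj => ?_, by rw [conj_pow]; exact conj_mem_zN hg.2.2⟩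
    have hj' : x⁻¹ * j * x ∈ K₁ := by simpa using hK₁n.conj_mem j hj x⁻¹
    have he : ⁅x * g * x⁻¹, j⁆ = x * ⁅g, x⁻¹ * j * x⁆ * x⁻¹ := by
      simp only [commutatorElement_def]; group
    rw [he]
    exact conj_mem_zN (hg.2.1 _ hj')
  have hzL : zN N ≤ L := fun z hz' => ⟨hzK hz', fun j hj => by
    rw [commutatorElement_eq_one_iff_mul_comm.2 ((mem_zN.1 hz').2 j (hK₁N hj)).symm]
    exact one_mem _, pow_mem hz' _⟩
  obtain ⟨z, hzord⟩ := exists_prime_orderOf_dvd_card' (G := Subgroup.center K) p hpdvd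
  have hLK : L = K₁ := by
    refine (chief L hLn hzL fun g hg => hg.1).resolve_left fun hsmall => ?_
    obtain ⟨n, hn⟩ := QuotientGroup.mk'_surjective (Subgroup.center N)
      (((z : Subgroup.center K) : K) : N ⧸ Subgroup.center N)
    have hnK : proj N n ∈ K := hn.symm ▸ ((z : Subgroup.center K) : K).2
    have hnL : (n : G) ∈ L := by
      refine ⟨(hmemK n).2 hnK, fun j hj => ?_, ?_⟩
      · obtain ⟨j', hj', rfl⟩ := hj
        have hcom : proj N ⁅n, j'⁆ = 1 := by
          rw [map_commutatorElement, commutatorElement_eq_one_iff_mul_comm, hn]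
          exact congrArg Subtype.val (Subgroup.mem_center_iff.1 z.2 ⟨proj N j', hj'⟩).symm
        simpa [commutatorElement_def] using proj_eq_one.1 hcom
      · have hpow : proj N (n ^ p) = 1 := by
          rw [map_pow, hn, ← Subgroup.coe_pow, ← Subgroup.coe_pow, ← hzord, pow_orderOf_eq_one]
          rfl
        simpa using proj_eq_one.1 hpow
    have h1 := proj_eq_one.2 (hsmall _ hnL)
    rw [hn] at h1
    have hz1 : z = 1 := Subtype.ext (Subtype.ext h1)
    rw [hz1, orderOf_one] at hzord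
    exact hp.ne_one hzord.symm
  have hKel : Cfsg.IsElementaryAbelian p K := by
    refine ⟨IsMulCommutative.of_comm fun u v => Subtype.ext ?_, fun u hu => ?_⟩
    · obtain ⟨u', hu'⟩ := QuotientGroup.mk'_surjective (Subgroup.center N) (u : N ⧸ Subgroup.center N)
      obtain ⟨v', hv'⟩ := QuotientGroup.mk'_surjective (Subgroup.center N) (v : N ⧸ Subgroup.center N)
      have hu1 : (u' : G) ∈ L := hLK.ge ((hmemK u').2 (hu'.symm ▸ u.2))
      have hv1 : (v' : G) ∈ K₁ := (hmemK v').2 (hv'.symm ▸ v.2)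
      change (u : N ⧸ Subgroup.center N) * v = v * u
      rw [← hu', ← hv', ← commutatorElement_eq_one_iff_mul_comm, ← map_commutatorElement]
      exact proj_eq_one.2 (by simpa [commutatorElement_def] using hu1.2.1 _ hv1)
    · obtain ⟨u', rfl⟩ := QuotientGroup.mk'_surjective (Subgroup.center N) u
      rw [← map_pow]
      exact proj_eq_one.2 (by simpa using (hLK.ge ((hmemK u').2 hu)).2.2)
  refine ⟨bar N a, K, p, hp, hF, ?_, hKn, hK, hKel⟩
  -- the complement has prime order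
  have hA1 := CfsgLib.Frobenius.one_lt_card hF
  obtain ⟨q, hq, hqdvd⟩ := Nat.exists_prime_and_dvd hA1.ne'
  haveI : Fact q.Prime := ⟨hq⟩
  obtain ⟨⟨b', hb'mem⟩, hb'⟩ := exists_prime_orderOf_dvd_card' (G := bar N a) q hqdvd
  rw [Subgroup.orderOf_mk] at hb'
  obtain ⟨b, rfl⟩ := QuotientGroup.mk'_surjective (Subgroup.center N) b'
  have hbA : (b : G) ∈ cN N a := (proj_mem_bar ha).1 hb'mem
  have hbz : (b : G) ∉ zN N := fun h => by
    rw [proj_eq_one.2 h, orderOf_one] at hb'
    exact hq.ne_one hb'.symm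
  -- all centralizers of non-central elements of `A` in `G` coincide
  have hcent : Subgroup.centralizer ({a} : Set G) = Subgroup.centralizer {(b : G)} := by
    have hnor : ∀ w ∈ cN N a, w ∉ zN N →
        Subgroup.centralizer ({w} : Set G) ≤ Subgroup.normalizer (cN N a : Set G) := by
      intro w hw hwz m hm
      rw [Subgroup.mem_normalizer_iff]
      have heq := cN_eq_of_mem hN hs hc hw hwz
      refine fun c => ⟨fun h => ?_, fun h => ?_⟩
      · rw [← heq] at h ⊢; exact conj_mem_cN hm h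
      · rw [← heq] at h ⊢
        simpa [mul_assoc] using conj_mem_cN (inv_mem hm) h
    have hproper : Subgroup.normalizer (cN N a : Set G) ≠ ⊤ := fun h => by
      refine cN_ne ha hz (le_antisymm cN_le fun n hn => hs n hn fun c hc' => ?_)
      exact ((Subgroup.mem_normalizer_iff.1 (h ▸ Subgroup.mem_top n)) c).1 hc'
    have h1 := ((isCoatom_of hN ha hz).le_iff.1 (hnor a (self_mem_cN ha) hz)).resolve_left hproper
    have h2 := ((isCoatom_of hN b.2 hbz).le_iff.1 (hnor b hbA hbz)).resolve_left hproper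
    rw [← h1, ← h2]
  set N₀ := K₁ ⊔ Subgroup.zpowers (b : G) with hN₀
  have hAle : ∀ c ∈ cN N a, Commute c (b : G) := fun c hc' => hc c hc' b hbA
  have hN₀n : N₀.Normal := by
    rw [← Subgroup.normalizer_eq_top_iff]
    have hsupM : Subgroup.centralizer ({a} : Set G) ⊔ N = ⊤ :=
      (isCoatom_of hN ha hz).lt_iff.1 (lt_of_le_of_ne le_sup_left fun h =>
        cN_ne ha hz (le_antisymm cN_le (le_inf le_rfl (h.ge.trans' le_sup_right))))
    have hcomm : ∀ g : G, Commute g (b : G) → g ∈ Subgroup.normalizer (N₀ : Set G) := by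
      intro g hg
      have hle : ∀ g : G, Commute g (b : G) → N₀ ≤ N₀.comap (MulAut.conj g).toMonoidHom := by
        intro g hg
        refine sup_le (fun k hk => le_sup_left (b := Subgroup.zpowers (b : G)) (hK₁n.conj_mem k hk g))
          (Subgroup.zpowers_le.2 (le_sup_right (a := K₁) ?_))
        change g * b * g⁻¹ ∈ Subgroup.zpowers (b : G)
        rw [hg.eq, mul_inv_cancel_right]
        exact Subgroup.mem_zpowers _
      refine Subgroup.mem_normalizer_iff.2 fun c => ⟨fun h => hle g hg h, fun h => ?_⟩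
      have := hle g⁻¹ hg.inv_left h
      simpa [mul_assoc] using this
    rw [eq_top_iff, ← hsupM]
    refine sup_le (fun m hm => hcomm m (Subgroup.mem_centralizer_singleton_iff.1 (hcent ▸ hm))) ?_
    intro n hn
    obtain ⟨⟨k, c⟩, hkc⟩ := hKc.2 (proj N ⟨n, hn⟩)
    obtain ⟨c', hc'⟩ := QuotientGroup.mk'_surjective (Subgroup.center N) (c : N ⧸ Subgroup.center N)
    have hcA : (c' : G) ∈ cN N a := (proj_mem_bar ha).1 (hc'.symm ▸ c.2)
    have hk : (((⟨n, hn⟩ : N) * c'⁻¹ : N) : G) ∈ K₁ := by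
      refine (hmemK _).2 ?_
      rw [map_mul, map_inv, hc', ← hkc]
      simp
    have hmem := (Subgroup.normalizer (N₀ : Set G)).mul_mem
      (Subgroup.le_normalizer (le_sup_left (b := Subgroup.zpowers (b : G)) hk)) (hcomm _ (hAle _ hcA))
    simpa [mul_assoc] using hmem
  -- a non-central element of the kernel
  obtain ⟨k₀, hk₀, hk₀1⟩ := K.ne_bot_iff_exists_ne_one.1 hKne |> fun ⟨x, hx⟩ =>
    (⟨x.1, x.2, fun h => hx (Subtype.ext h)⟩ : ∃ k, k ∈ K ∧ k ≠ 1)
  obtain ⟨x, rfl⟩ := QuotientGroup.mk'_surjective (Subgroup.center N) k₀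
  have hxz : (x : G) ∉ zN N := fun h => hk₀1 (proj_eq_one.2 h)
  have hxC : cN N (x : G) ≤ K₁ := by
    intro w hw
    by_contra hwK
    have hwz : w ∉ zN N := fun h => hwK (hzK h)
    have hwc : proj N ⟨w, hw.1⟩ ∈ conjHash (bar N a) :=
      CfsgLib.Frobenius.mem_conjHash_of_not_mem_kernel hK fun h => hwK ((hmemK ⟨w, hw.1⟩).2 h)
    obtain ⟨-, g, hg, hga⟩ := (proj_mem_conjHash ha).1 hwc
    have e := conj_member_eq (cN_eq_of_mem hN hs hc hga (fun h => hwz (by
      have := conj_mem_zN (g := g) h; simpa [mul_assoc] using this)))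
    refine hout.1 hk₀ ((proj_mem_conjHash ha).2 ⟨hxz, g, hg, ?_⟩)
    rw [← e]
    have : (x : G) ∈ cN N w := mem_cN.2 ⟨x.2, (mem_cN.1 hw).2.symm⟩
    convert this using 1
    group
  have hN₀N : N₀ ≤ N := sup_le hK₁N (Subgroup.zpowers_le.2 b.2)
  have hN₀eq : N₀ = N := by
    refine (eq_or_eq hN x.2 hxz (L := N₀) (hxC.trans le_sup_left) hN₀N
      fun m _ l hl => hN₀n.conj_mem l hl m).resolve_left fun h => ?_
    exact hbz (hinter b (hxC (h.le (le_sup_right (a := K₁) (Subgroup.mem_zpowers _)))) hbA)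
  have hbar : bar N a = Subgroup.zpowers (proj N b) := by
    refine le_antisymm (fun c hc' => ?_) (Subgroup.zpowers_le.2 ((proj_mem_bar ha).2 hbA))
    obtain ⟨c, rfl⟩ := QuotientGroup.mk'_surjective (Subgroup.center N) c
    obtain ⟨k, hk, l, ⟨i, rfl⟩, hkl⟩ :=
      Subgroup.mem_sup_of_normal_left.1 (hN₀eq.ge c.2 : (c : G) ∈ N₀)
    have hcA := (proj_mem_bar ha).1 hc'
    have hkz : k ∈ zN N := hinter k hk (by
      have : k = (c : G) * ((b : G) ^ i)⁻¹ := by rw [← hkl, mul_inv_cancel_right]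
      rw [this]
      exact mul_mem hcA (inv_mem (zpow_mem hbA i)))
    have hceq : c = (⟨k, hK₁N hk⟩ : N) * b ^ i := Subtype.ext (by simpa using hkl.symm)
    rw [hceq, map_mul, (proj_eq_one (n := (⟨k, hK₁N hk⟩ : N))).2 hkz, one_mul, map_zpow]
    exact Subgroup.zpow_mem_zpowers _ i
  rw [hbar, Nat.card_zpowers, hb']
  exact hq

/-- The main statement. -/
theorem structure_theorem (hN : MaxCent N) [N.Normal] :
    (∃ p : ℕ, p.Prime ∧ Cfsg.IsElementaryAbelian p (⊤ : Subgroup (↥N ⧸ Subgroup.center ↥N))) ∨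
    (∃ (Q K : Subgroup (↥N ⧸ Subgroup.center ↥N)) (p : ℕ), p.Prime ∧ Cfsg.IsFrobeniusComplement Q ∧
      (Nat.card ↥Q).Prime ∧ K.Normal ∧
      (K : Set (↥N ⧸ Subgroup.center ↥N)) = Cfsg.frobeniusKernel Q ∧
      Cfsg.IsElementaryAbelian p K) := by
  by_cases h : ∃ a ∈ N, a ∉ zN N ∧ IsSelf N a ∧ ∀ x ∈ cN N a, ∀ y ∈ cN N a, x * y = y * x
  · obtain ⟨a, ha, hz, hs, hc⟩ := h
    exact Or.inr (frobenius_case hN ha hz hs hc)
  · left
    push Not at h
    haveI : Group.IsNilpotent N := isNilpotent_of_no_abelian_self hN fun x hx hxz hxs hall => by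
      obtain ⟨u, hu, v, hv, huv⟩ := h x hx hxz hxs
      exact huv (hall u hu v hv)
    obtain ⟨p, hp, hpow⟩ := exists_prime_exponent hN
    refine ⟨p, hp, IsMulCommutative.of_comm fun u v => Subtype.ext ?_, fun u _ => ?_⟩
    · obtain ⟨u', hu'⟩ := QuotientGroup.mk'_surjective (Subgroup.center N) (u : N ⧸ Subgroup.center N)
      obtain ⟨v', hv'⟩ := QuotientGroup.mk'_surjective (Subgroup.center N) (v : N ⧸ Subgroup.center N)
      change (u : N ⧸ Subgroup.center N) * v = v * u
      rw [← hu', ← hv', ← commutatorElement_eq_one_iff_mul_comm, ← map_commutatorElement]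
      exact proj_eq_one.2 (by simpa [commutatorElement_def] using commutator_mem_zN hN u'.2 v'.2)
    · obtain ⟨u', rfl⟩ := QuotientGroup.mk'_surjective (Subgroup.center N) u
      rw [← map_pow]
      exact proj_eq_one.2 (by simpa using hpow _ u'.2)

end CfsgLib.MaxCentralizers
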